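import Cfsg.Agent.H744.EP.Rank
import Cfsg.Agent.H273.EPU.Soc
import Cfsg.Agent.Lib.Cores

/-!
# S3499: the members `K` of `LocK L` with `O_p(K) ≠ 1`, `L` a group of matrices modulo scalars in characteristic `p`
(helper744)

`ncard_locP_le` : their number is at most the number of `(n - 1)`-tuples of subspaces of `V`, `n = dim V` (`K` is
determined by the chain of the fixed spaces of `O_p(K)`; this is the argument of Borel and Tits).
-/

set_option autoImplicit false
set_option linter.unusedSectionVars false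

namespace Cfsg.Agent.H744.EP

open Module Subgroup Cfsg.Agent.H273.EPU

/-! ### the number of subspaces -/

section count

variable {F : Type*} [Field F] [Finite F]

theorem ncard_sub_le {V : Type*} [AddCommGroup V] [Module F V] [FiniteDimensional F V] (m : ℕ) :
    {W : Submodule F V | finrank F W ≤ m}.ncard ≤ Nat.card V ^ m := by
  have hV : Finite V := Module.finite_of_finite F
  have h1 : {W : Submodule F V | finrank F W ≤ m} ⊆ Set.range (fun f : Fin m → V => Submodule.span F (Set.range f)) := by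
    intro W hW
    have hW' : finrank F W ≤ m := hW
    let b := Module.finBasis F W
    refine ⟨fun i => if h : (i : ℕ) < finrank F W then (b ⟨i, h⟩ : V) else 0, ?_⟩
    apply le_antisymm
    · rw [Submodule.span_le]
      rintro _ ⟨i, rfl⟩
      show (if h : (i : ℕ) < finrank F W then (b ⟨i, h⟩ : V) else 0) ∈ W
      split_ifs with h
      · exact (b ⟨i, h⟩).2
      · exact W.zero_mem
    · intro w hw
      have h2 : (⟨w, hw⟩ : W) ∈ Submodule.span F (Set.range b) := by rw [b.span_eq]; exact Submodule.mem_top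
      have h3 := Submodule.apply_mem_span_image_of_mem_span W.subtype h2
      refine Submodule.span_mono ?_ h3
      rintro _ ⟨_, ⟨i, rfl⟩, rfl⟩
      refine ⟨⟨i, i.2.trans_le hW'⟩, ?_⟩
      show (if h : (i : ℕ) < finrank F W then (b ⟨i, h⟩ : V) else 0) = b i
      rw [dif_pos i.2]
  refine (Set.ncard_le_ncard h1 (Set.toFinite _)).trans ?_
  have h2 : (Set.range (fun f : Fin m → V => Submodule.span F (Set.range f))).ncard ≤ Nat.card (Fin m → V) := by
    rw [← Nat.card_coe_set_eq]
    exact Finite.card_range_le _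
  refine h2.trans (le_of_eq ?_)
  rw [Nat.card_pi, Finset.prod_const, Finset.card_univ, Fintype.card_fin]

theorem card_submodule_le {V : Type*} [AddCommGroup V] [Module F V] [FiniteDimensional F V] {m : ℕ}
    (hm : finrank F V ≤ 2 * m) : Nat.card (Submodule F V) ≤ 2 * Nat.card V ^ m := by
  have hV : Finite V := Module.finite_of_finite F
  have hD : Nat.card (Module.Dual F V) = Nat.card V := by
    rw [Module.natCard_eq_pow_finrank (K := F) (V := V), Module.natCard_eq_pow_finrank (K := F) (V := Module.Dual F V),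
      Subspace.dual_finrank_eq]
  have h1 : (Set.univ : Set (Submodule F V)) ⊆
      {W : Submodule F V | finrank F W ≤ m} ∪ {W : Submodule F V | m < finrank F W} := by
    intro W _
    rcases le_or_gt (finrank F W) m with h | h
    · exact Or.inl h
    · exact Or.inr h
  rw [← Set.ncard_univ]
  refine (Set.ncard_le_ncard h1 (Set.toFinite _)).trans ((Set.ncard_union_le _ _).trans ?_)
  rw [two_mul]
  refine Nat.add_le_add (ncard_sub_le m) ?_
  have h2 := ncard_sub_le (F := F) (V := Module.Dual F V) m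
  rw [hD] at h2
  refine le_trans ?_ h2
  have hDf : Finite (Module.Dual F V) := Module.finite_of_finite F
  refine Set.ncard_le_ncard_of_injOn (fun W : Submodule F V => W.dualAnnihilator) ?_ ?_ (Set.toFinite _)
  · intro W hW
    have hW' : m < finrank F W := hW
    have h3 := Subspace.finrank_add_finrank_dualAnnihilator_eq W
    show finrank F W.dualAnnihilator ≤ m
    omega
  · intro W _ W' _ e
    exact Subspace.dualAnnihilator_inj.1 e

end count

/-! ### the chain -/

section chain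

variable {F : Type*} [Field F] {V : Type*} [AddCommGroup V] [Module F V] {H L : Type*} [Group H] [Group L]

/-- the `p`-elements over `Y` -/
def PE (p : ℕ) (π : H →* L) (Y : Subgroup L) : Set H := {h | π h ∈ Y ∧ ∃ k : ℕ, h ^ p ^ k = 1}

/-- the chain of the fixed spaces -/
def ch (p : ℕ) (ρ : H →* Module.End F V) (π : H →* L) (Y : Subgroup L) : ℕ → Submodule F V
  | 0 => ⊥
  | i + 1 => ⨅ h : PE p π Y, (ch p ρ π Y i).comap (ρ (h : H) - 1)

variable {p : ℕ} {ρ : H →* Module.End F V} {π : H →* L}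

theorem mem_ch_succ {Y : Subgroup L} {i : ℕ} {v : V} :
    v ∈ ch p ρ π Y (i + 1) ↔ ∀ h ∈ PE p π Y, ρ h v - v ∈ ch p ρ π Y i := by
  show v ∈ ⨅ h : PE p π Y, (ch p ρ π Y i).comap (ρ (h : H) - 1) ↔ _
  rw [Submodule.mem_iInf]
  constructor
  · intro h1 h hh
    exact h1 ⟨h, hh⟩
  · intro h1 h
    exact h1 h h.2

theorem ch_le_succ (Y : Subgroup L) (i : ℕ) : ch p ρ π Y i ≤ ch p ρ π Y (i + 1) := by
  induction i with
  | zero => exact bot_le
  | succ i ih =>
    intro v hv
    rw [mem_ch_succ] at hv ⊢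
    exact fun h hh => ih (hv h hh)

theorem ch_mono (Y : Subgroup L) {i j : ℕ} (h : i ≤ j) : ch p ρ π Y i ≤ ch p ρ π Y j := by
  induction h with
  | refl => exact le_rfl
  | step _ ih => exact ih.trans (ch_le_succ Y _)

/-- unipotent along a chain -/
def Uni (ρ : H →* Module.End F V) (C : ℕ → Submodule F V) : Set H := {h | ∀ i, ∀ v ∈ C (i + 1), ρ h v - v ∈ C i}

theorem Uni.stab {C : ℕ → Submodule F V} (hC : C 0 = ⊥) (hm : ∀ i, C i ≤ C (i + 1)) {h : H} (hh : h ∈ Uni ρ C) (i : ℕ)
    {v : V} (hv : v ∈ C i) : ρ h v ∈ C i := by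
  have h1 : ρ h v = (ρ h v - v) + v := by abel
  rw [h1]
  refine (C i).add_mem ?_ hv
  cases i with
  | zero =>
    rw [hC, Submodule.mem_bot] at hv ⊢
    rw [hv, map_zero, sub_zero]
  | succ i => exact hm i (hh i v hv)

theorem Uni.mul {C : ℕ → Submodule F V} (hC : C 0 = ⊥) (hm : ∀ i, C i ≤ C (i + 1)) {g h : H} (hg : g ∈ Uni ρ C)
    (hh : h ∈ Uni ρ C) : g * h ∈ Uni ρ C := by
  intro i v hv
  have h1 : ρ (g * h) v - v = ρ g (ρ h v - v) + (ρ g v - v) := by
    rw [map_mul, Module.End.mul_apply, map_sub]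
    abel
  rw [h1]
  exact (C i).add_mem (Uni.stab hC hm hg i (hh i v hv)) (hg i v hv)

theorem Uni.one {C : ℕ → Submodule F V} : (1 : H) ∈ Uni ρ C := by
  intro i v _
  rw [map_one, Module.End.one_apply, sub_self]
  exact (C i).zero_mem

theorem Uni.pow {C : ℕ → Submodule F V} (hC : C 0 = ⊥) (hm : ∀ i, C i ≤ C (i + 1)) {h : H} (hh : h ∈ Uni ρ C)
    (k : ℕ) : h ^ k ∈ Uni ρ C := by
  induction k with
  | zero => rw [pow_zero]; exact Uni.one
  | succ k ih => rw [pow_succ]; exact Uni.mul hC hm ih hh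

theorem Uni.inv [Finite H] {C : ℕ → Submodule F V} (hC : C 0 = ⊥) (hm : ∀ i, C i ≤ C (i + 1)) {h : H}
    (hh : h ∈ Uni ρ C) : h⁻¹ ∈ Uni ρ C := by
  have h1 : h⁻¹ = h ^ (orderOf h - 1) := by
    rw [inv_eq_iff_mul_eq_one, ← pow_succ']
    have h2 : orderOf h - 1 + 1 = orderOf h := Nat.sub_add_cancel (orderOf_pos h)
    rw [h2, pow_orderOf_eq_one]
  rw [h1]
  exact Uni.pow hC hm hh _

/-- the group of the elements unipotent along the chain -/
def UG [Finite H] (ρ : H →* Module.End F V) (π : H →* L) (C : ℕ → Submodule F V) (hC : C 0 = ⊥)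
    (hm : ∀ i, C i ≤ C (i + 1)) : Subgroup L where
  carrier := {l | ∃ h ∈ Uni ρ C, π h = l}
  one_mem' := ⟨1, Uni.one, map_one π⟩
  mul_mem' := by
    rintro _ _ ⟨g, hg, rfl⟩ ⟨h, hh, rfl⟩
    exact ⟨g * h, Uni.mul hC hm hg hh, map_mul π g h⟩
  inv_mem' := by
    rintro _ ⟨g, hg, rfl⟩
    exact ⟨g⁻¹, Uni.inv hC hm hg, map_inv π g⟩

theorem Uni.pow_eq_zero {C : ℕ → Submodule F V} (hC : C 0 = ⊥) {h : H} (hh : h ∈ Uni ρ C) :
    ∀ (i : ℕ) (v : V), v ∈ C i → ((ρ h - 1) ^ i) v = 0 := by
  intro i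
  induction i with
  | zero =>
    intro v hv
    rw [hC, Submodule.mem_bot] at hv
    rw [hv, map_zero]
  | succ i ih =>
    intro v hv
    rw [pow_succ, Module.End.mul_apply]
    exact ih _ (hh i v hv)

/-- the group `UG` is a `p`-group -/
theorem isPGroup_UG [Finite H] [Fact p.Prime] [CharP F p] (hinj : Function.Injective ρ) {C : ℕ → Submodule F V}
    (hC : C 0 = ⊥) (hm : ∀ i, C i ≤ C (i + 1)) {n : ℕ} (hn : C n = ⊤) : IsPGroup p (UG ρ π C hC hm) := by
  rintro ⟨l, h, hh, rfl⟩
  refine ⟨n, Subtype.ext ?_⟩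
  show π h ^ p ^ n = 1
  rw [← map_pow]
  have h1 : h ^ p ^ n = 1 := by
    apply hinj
    rw [map_pow, map_one]
    rcases subsingleton_or_nontrivial V with hV | hV
    · ext v
      exact Subsingleton.elim _ _
    have hch : CharP (Module.End F V) p :=
      charP_of_injective_algebraMap (FaithfulSMul.algebraMap_injective F (Module.End F V)) p
    have h2 : (ρ h - 1) ^ n = 0 := by
      ext v
      rw [Uni.pow_eq_zero hC hh n v (by rw [hn]; exact Submodule.mem_top), LinearMap.zero_apply]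
    have hpn : n ≤ p ^ n := (Nat.lt_pow_self (Fact.out : p.Prime).one_lt).le
    have h3 : (ρ h - 1) ^ p ^ n = 0 := pow_eq_zero_of_le hpn h2
    rw [sub_pow_char_pow_of_commute p n (Commute.one_right (ρ h)), one_pow] at h3
    exact sub_eq_zero.1 h3
  rw [h1, map_one]

end chain

/-! ### groups modulo scalars -/

section PE

variable {F : Type*} [Field F] {V : Type*} [AddCommGroup V] [Module F V] {H L : Type*} [Group H] [Group L]

/-- `L` is the group `H ≤ GL(V)` modulo scalars -/
structure Dat (ρ : H →* Module.End F V) (π : H →* L) : Prop where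
  inj : Function.Injective ρ
  surj : Function.Surjective π
  ker : ∀ h, π h = 1 → ∃ c : F, ∀ v, ρ h v = c • v

variable {p : ℕ} [Fact p.Prime] [CharP F p] {ρ : H →* Module.End F V} {π : H →* L}

theorem Dat.comm (D : Dat ρ π) {z : H} (hz : π z = 1) (h : H) : Commute h z := by
  apply D.inj
  ext v
  obtain ⟨c, hc⟩ := D.ker z hz
  rw [map_mul, map_mul, Module.End.mul_apply, Module.End.mul_apply, hc, hc, map_smul]

theorem Dat.ker_pp (D : Dat ρ π) {z : H} (hz : π z = 1) {k : ℕ} (hk : z ^ p ^ k = 1) : z = 1 := by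
  obtain ⟨c, hc⟩ := D.ker z hz
  apply D.inj
  ext v
  rw [hc, map_one, Module.End.one_apply]
  by_cases hv : v = 0
  · rw [hv, smul_zero]
  have h1 := pow_apply_of (hc v) (p ^ k)
  rw [← map_pow, hk, map_one, Module.End.one_apply] at h1
  have h2 : (1 : F) = c ^ p ^ k := smul_left_injective F hv (by
    show (1 : F) • v = c ^ p ^ k • v
    rw [one_smul]
    exact h1)
  have h3 : (c - 1) ^ p ^ k = 0 := by
    rw [sub_pow_char_pow_of_commute p k (Commute.one_right c), one_pow, ← h2, sub_self]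
  have h4 : c = 1 := sub_eq_zero.1 (pow_eq_zero_iff (pow_ne_zero _ (Fact.out : p.Prime).ne_zero) |>.1 h3)
  rw [h4, one_smul]

/-- the `p`-elements over a `p`-group `Y` form a `p`-group which is mapped onto `Y` -/
theorem Dat.exists_lift [Finite H] (D : Dat ρ π) {Y : Subgroup L} (hY : IsPGroup p Y) :
    ∃ P : Subgroup H, IsPGroup p P ∧ (P : Set H) = PE p π Y ∧ ∀ y ∈ Y, ∃ u ∈ P, π u = y := by
  let f : Y.comap π →* Y := π.subgroupComap Y
  have hf : Function.Surjective f := by
    rintro ⟨y, hy⟩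
    obtain ⟨h, rfl⟩ := D.surj y
    exact ⟨⟨h, hy⟩, rfl⟩
  obtain ⟨P0⟩ : Nonempty (Sylow p (Y.comap π)) := inferInstance
  have htop : (P0 : Subgroup (Y.comap π)).map f = ⊤ := by
    have h1 := (P0.mapSurjective hf).is_maximal' (Q := ⊤) (hY.of_equiv Subgroup.topEquiv.symm) le_top
    rw [Sylow.coe_mapSurjective] at h1
    exact h1.symm
  have hlift : ∀ y ∈ Y, ∃ u : Y.comap π, u ∈ P0 ∧ π (u : H) = y := by
    intro y hy
    have h1 : (⟨y, hy⟩ : Y) ∈ (P0 : Subgroup (Y.comap π)).map f := by rw [htop]; exact mem_top _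
    obtain ⟨u, hu, e⟩ := h1
    exact ⟨u, hu, congrArg Subtype.val e⟩
  refine ⟨(P0 : Subgroup (Y.comap π)).map (Y.comap π).subtype, P0.isPGroup'.map _, ?_, ?_⟩
  · ext h
    constructor
    · rintro ⟨k, hk, rfl⟩
      obtain ⟨n, hn⟩ := P0.isPGroup' ⟨k, hk⟩
      exact ⟨k.2, n, congrArg (fun x : P0 => ((x : Y.comap π) : H)) hn⟩
    · rintro ⟨hh, b, hb⟩
      obtain ⟨u, hu, e⟩ := hlift _ hh
      obtain ⟨a, ha⟩ := P0.isPGroup' ⟨u, hu⟩
      have ha' : (u : H) ^ p ^ a = 1 := congrArg (fun x : P0 => ((x : Y.comap π) : H)) ha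
      have hz : π ((u : H)⁻¹ * h) = 1 := by rw [map_mul, map_inv, e, inv_mul_cancel]
      have hcm := D.comm hz (u : H)
      have h1 : h = (u : H) * ((u : H)⁻¹ * h) := by group
      have h2 : ((u : H)⁻¹ * h) ^ p ^ (a + b) = 1 := by
        have h3 : h ^ p ^ (a + b) = (u : H) ^ p ^ (a + b) * ((u : H)⁻¹ * h) ^ p ^ (a + b) := by
          conv_lhs => rw [h1]
          exact hcm.mul_pow _
        rw [pow_add p a b, mul_comm (p ^ a), pow_mul, hb, one_pow, mul_comm (p ^ b), pow_mul, ha', one_pow,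
          one_mul] at h3
        rw [pow_add]
        exact h3.symm
      have h3 := D.ker_pp hz h2
      rw [inv_mul_eq_one] at h3
      rw [← h3]
      exact ⟨u, hu, rfl⟩
  · intro y hy
    obtain ⟨u, hu, e⟩ := hlift y hy
    exact ⟨u, ⟨u, hu, rfl⟩, e⟩

theorem exists_fix [Finite V] {P : Subgroup H} (hP : IsPGroup p P) {W : Submodule F V} (hW : W ≠ ⊤)
    (hst : ∀ h ∈ P, ∀ w ∈ W, ρ h w ∈ W) : ∃ v, v ∉ W ∧ ∀ h ∈ P, ρ h v - v ∈ W := by
  let act : MulAction P (V ⧸ W) :=
    { smul := fun u x => W.mapQ W (ρ (u : H)) (fun w hw => hst u u.2 w hw) x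
      one_smul := fun x => by
        obtain ⟨v, rfl⟩ := W.mkQ_surjective x
        show W.mapQ W (ρ ((1 : P) : H)) _ (W.mkQ v) = W.mkQ v
        rw [Submodule.mkQ_apply, Submodule.mapQ_apply]
        congr 1
        rw [Subgroup.coe_one, map_one, Module.End.one_apply]
      mul_smul := fun a b x => by
        obtain ⟨v, rfl⟩ := W.mkQ_surjective x
        show W.mapQ W (ρ ((a * b : P) : H)) _ (W.mkQ v) = W.mapQ W (ρ (a : H)) _ (W.mapQ W (ρ (b : H)) _ (W.mkQ v))
        rw [Submodule.mkQ_apply, Submodule.mapQ_apply, Submodule.mapQ_apply, Submodule.mapQ_apply]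
        congr 1
        rw [Subgroup.coe_mul, map_mul, Module.End.mul_apply] }
  have hsm : ∀ (u : P) (v : V), u • (Submodule.Quotient.mk v : V ⧸ W) = Submodule.Quotient.mk (ρ (u : H) v) := by
    intro u v
    show W.mapQ W (ρ (u : H)) _ (Submodule.Quotient.mk v) = _
    rw [Submodule.mapQ_apply]
  have hn : Nontrivial (V ⧸ W) := Submodule.Quotient.nontrivial_iff.2 hW
  have hdvd : p ∣ Nat.card (V ⧸ W) := by
    obtain ⟨x, hx⟩ := exists_ne (0 : V ⧸ W)
    have h1 : p • x = 0 := by
      rw [← Nat.cast_smul_eq_nsmul F, CharP.cast_eq_zero, zero_smul]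
    rw [← addOrderOf_eq_prime h1 hx]
    exact addOrderOf_dvd_natCard x
  have h0 : (0 : V ⧸ W) ∈ MulAction.fixedPoints P (V ⧸ W) := by
    intro u
    have := hsm u 0
    rw [map_zero] at this
    exact this
  have hfq : Finite (V ⧸ W) := Finite.of_surjective _ W.mkQ_surjective
  obtain ⟨b, hb, hb0⟩ := hP.exists_fixed_point_of_prime_dvd_card_of_fixed_point (V ⧸ W) hdvd h0
  obtain ⟨v, rfl⟩ := W.mkQ_surjective b
  refine ⟨v, ?_, ?_⟩
  · intro hv
    apply hb0
    rw [Submodule.mkQ_apply, (Submodule.Quotient.mk_eq_zero W).2 hv]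
  · intro h hh
    have h1 := hb ⟨h, hh⟩
    rw [Submodule.mkQ_apply, hsm] at h1
    exact (Submodule.Quotient.eq W).1 h1

theorem ch_stab {Y : Subgroup L} {h : H} (hh : h ∈ PE p π Y) (i : ℕ) {v : V} (hv : v ∈ ch p ρ π Y i) :
    ρ h v ∈ ch p ρ π Y i :=
  Uni.stab (ρ := ρ) (C := ch p ρ π Y) rfl (ch_le_succ Y) (fun _ _ hw => mem_ch_succ.1 hw h hh) i hv

theorem ch_top [Finite H] [Finite V] [FiniteDimensional F V] (D : Dat ρ π) {Y : Subgroup L} (hY : IsPGroup p Y) :
    ch p ρ π Y (finrank F V) = ⊤ := by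
  obtain ⟨P, hP, hPE, _⟩ := D.exists_lift hY
  have key : ∀ i, ch p ρ π Y i = ⊤ ∨ i ≤ finrank F (ch p ρ π Y i) := by
    intro i
    induction i with
    | zero => exact Or.inr (Nat.zero_le _)
    | succ i ih =>
      rcases ih with ih | ih
      · left
        rw [eq_top_iff, ← ih]
        exact ch_le_succ Y i
      by_cases ht : ch p ρ π Y i = ⊤
      · left
        rw [eq_top_iff, ← ht]
        exact ch_le_succ Y i
      right
      obtain ⟨v, hv, hfix⟩ := exists_fix (p := p) hP ht (fun h hh w hw => ch_stab (by rw [← hPE]; exact hh) i hw)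
      have hlt : ch p ρ π Y i < ch p ρ π Y (i + 1) := by
        refine lt_of_le_of_ne (ch_le_succ Y i) fun e => hv ?_
        rw [e, mem_ch_succ]
        intro h hh
        exact hfix h (by rw [← hPE] at hh; exact hh)
      have := Submodule.finrank_lt_finrank_of_lt hlt
      omega
  rcases key (finrank F V) with h | h
  · exact h
  · apply Submodule.eq_top_of_finrank_eq
    exact le_antisymm (Submodule.finrank_le _) h

/-- conjugation by elements normalising `Y` -/
theorem PE_conj {Y : Subgroup L} {g : H} (hg : ∀ y ∈ Y, π g * y * (π g)⁻¹ ∈ Y) {h : H} (hh : h ∈ PE p π Y) :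
    g * h * g⁻¹ ∈ PE p π Y := by
  obtain ⟨h1, k, hk⟩ := hh
  refine ⟨?_, k, ?_⟩
  · rw [map_mul, map_mul, map_inv]
    exact hg _ h1
  · rw [conj_pow, hk, mul_one, mul_inv_cancel]

theorem ch_conj {Y : Subgroup L} {g : H} (hg : ∀ y ∈ Y, (π g)⁻¹ * y * π g ∈ Y) (i : ℕ) :
    ∀ v ∈ ch p ρ π Y i, ρ g v ∈ ch p ρ π Y i := by
  induction i with
  | zero =>
    intro v hv
    have hv' : v ∈ (⊥ : Submodule F V) := hv
    rw [Submodule.mem_bot] at hv'
    rw [hv', map_zero]
    exact Submodule.zero_mem _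
  | succ i ih =>
    intro v hv
    rw [mem_ch_succ] at hv ⊢
    intro h hh
    have h1 : g⁻¹ * h * g⁻¹⁻¹ ∈ PE p π Y := PE_conj (g := g⁻¹) (by
      intro y hy
      rw [map_inv, inv_inv]
      exact hg y hy) hh
    rw [inv_inv] at h1
    have h2 := ih _ (hv _ h1)
    have h3 : ρ g (ρ (g⁻¹ * h * g) v - v) = ρ h (ρ g v) - ρ g v := by
      rw [map_sub, ← Module.End.mul_apply, ← map_mul]
      have : g * (g⁻¹ * h * g) = h * g := by group
      rw [this, map_mul, Module.End.mul_apply]
    rw [h3] at h2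
    exact h2

end PE

/-! ### the count -/

section loc

variable {F : Type*} [Field F] [Finite F] {V : Type*} [AddCommGroup V] [Module F V] [FiniteDimensional F V]
  {H L : Type*} [Group H] [Finite H] [Group L] {p : ℕ} [Fact p.Prime] [CharP F p] {ρ : H →* Module.End F V} {π : H →* L}

/-- the members `K` of `LocK L` with `O_p(K) ≠ 1` -/
def LocP (p : ℕ) (L : Type*) [Group L] : Set (Subgroup L) := {K | K ∈ LocK L ∧ Cfsg.pCore p K ≠ ⊥}

/-- `O_p(K)` as a subgroup of `L` -/
def Op (p : ℕ) {L : Type*} [Group L] (K : Subgroup L) : Subgroup L := (Cfsg.pCore p K).map K.subtype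

theorem Op_le (K : Subgroup L) : Op p K ≤ K := map_subtype_le _

theorem Op_isPGroup (K : Subgroup L) : IsPGroup p (Op p K) := (Lib.Cores.pCore_isPGroup p).map _

theorem normalizer_Op {K : Subgroup L} (hK : K ∈ LocP p L) : normalizer ((Op p K : Subgroup L) : Set L) = K := by
  apply le_antisymm
  · exact hK.1.2 _ (Lib.Cores.pCore_characteristic p) hK.2
  · have h1 : (Cfsg.pCore p K).Normal := Lib.Cores.pCore_normal p
    rw [← normal_subgroupOf_iff_le_normalizer (Op_le K), Op, subgroupOf,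
      comap_map_eq_self_of_injective K.subtype_injective]
    exact h1

theorem le_Op {K R : Subgroup L} (hR : IsPGroup p R) (hRK : R ≤ K) (hn : ∀ k ∈ K, ∀ r ∈ R, k * r * k⁻¹ ∈ R) :
    R ≤ Op p K := by
  have h1 : (R.subgroupOf K).Normal := ⟨fun r hr k => hn k k.2 r hr⟩
  have h2 : IsPGroup p ↥(R.subgroupOf K) := hR.comap_of_injective K.subtype K.subtype_injective
  intro x hx
  exact ⟨⟨x, hRK hx⟩, Lib.Cores.le_pCore h1 h2 hx, rfl⟩

/-- **Borel-Tits**: `O_p(K)` is the group of all elements which are unipotent along its chain of fixed spaces. -/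
theorem Op_eq (D : Dat ρ π) [Finite L] {K : Subgroup L} (hK : K ∈ LocP p L) :
    Op p K = UG ρ π (ch p ρ π (Op p K)) rfl (ch_le_succ _) := by
  have hV : Finite V := Module.finite_of_finite F
  set Y := Op p K with hY
  set U := UG ρ π (ch p ρ π Y) rfl (ch_le_succ _) with hU
  have hYp : IsPGroup p Y := Op_isPGroup K
  have hUp : IsPGroup p U := isPGroup_UG D.inj rfl (ch_le_succ _) (ch_top D hYp)
  have hYU : Y ≤ U := by
    intro y hy
    obtain ⟨P, _, hPE, hl⟩ := D.exists_lift hYp
    obtain ⟨u, hu, rfl⟩ := hl y hy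
    refine ⟨u, fun i v hv => ?_, rfl⟩
    rw [mem_ch_succ] at hv
    exact hv u (by rw [← hPE]; exact hu)
  by_contra hne
  obtain ⟨y, hyU, hyY, hyn⟩ := Cfsg.Agent.H284.exists_norm_lt (Fact.out : p.Prime) hUp hYU (fun e => hne e.symm)
  have hyK : y ∈ K := by
    rw [← normalizer_Op hK]
    have hle : Y.map (MulAut.conj y).toMonoidHom ≤ Y := by
      rintro _ ⟨k, hk, rfl⟩
      exact hyn k hk
    have heq : Y.map (MulAut.conj y).toMonoidHom = Y :=
      Subgroup.eq_of_le_of_card_ge hle (by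
        rw [Nat.card_congr (Y.equivMapOfInjective (MulAut.conj y).toMonoidHom (MulAut.conj y).injective).toEquiv])
    rw [mem_normalizer_iff]
    intro k
    refine ⟨hyn k, fun hk => ?_⟩
    rw [← hY, ← heq] at hk
    obtain ⟨k', hk', e⟩ := hk
    have e' : y * k' * y⁻¹ = y * k * y⁻¹ := e
    have : k' = k := by
      have := mul_right_cancel e'
      exact mul_left_cancel this
    rw [← this]
    exact hk'
  have hKU : ∀ k ∈ K, ∀ u ∈ U, k * u * k⁻¹ ∈ U := by
    rintro k hk _ ⟨h, hh, rfl⟩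
    obtain ⟨g, rfl⟩ := D.surj k
    have hkn : ∀ k ∈ K, ∀ y ∈ Y, k * y * k⁻¹ ∈ Y := by
      intro k hk y hy
      rw [← normalizer_Op hK] at hk
      exact (mem_normalizer_iff.1 hk y).1 hy
    refine ⟨g * h * g⁻¹, ?_, by rw [map_mul, map_mul, map_inv]⟩
    intro i v hv
    have h1 : ρ g⁻¹ v ∈ ch p ρ π Y (i + 1) := ch_conj (g := g⁻¹) (by
      intro y hy
      rw [map_inv, inv_inv]
      exact hkn _ hk y hy) _ v hv
    have h2 := ch_conj (g := g) (by
      intro y hy
      have := hkn _ (K.inv_mem hk) y hy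
      rwa [inv_inv] at this) i _ (hh i _ h1)
    have h3 : ρ g (ρ h (ρ g⁻¹ v) - ρ g⁻¹ v) = ρ (g * h * g⁻¹) v - v := by
      rw [map_sub, apply_inv, map_mul, map_mul, Module.End.mul_apply, Module.End.mul_apply]
    rw [h3] at h2
    exact h2
  have h1 : U ⊓ K ≤ Op p K := by
    refine le_Op (hUp.to_le inf_le_left) inf_le_right ?_
    intro k hk r hr
    exact ⟨hKU k hk r hr.1, K.mul_mem (K.mul_mem hk hr.2) (K.inv_mem hk)⟩
  exact hyY (h1 ⟨hyU, hyK⟩)

/-- **the number of the `K ∈ LocK L` with `O_p(K) ≠ 1`** -/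
theorem ncard_locP_le (D : Dat ρ π) [Finite L] : (LocP p L).ncard ≤ Nat.card (Submodule F V) ^ (finrank F V - 1) := by
  have hV : Finite V := Module.finite_of_finite F
  have hfin : Finite (Submodule F V) := inferInstance
  have h1 : (LocP p L).ncard ≤ Nat.card (Fin (finrank F V - 1) → Submodule F V) := by
    rw [← Set.ncard_univ]
    refine Set.ncard_le_ncard_of_injOn (fun K i => ch p ρ π (Op p K) (i + 1)) (fun _ _ => Set.mem_univ _) ?_
      (Set.toFinite _)
    intro K hK K' hK' e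
    have hch : ch p ρ π (Op p K) = ch p ρ π (Op p K') := by
      funext i
      rcases Nat.eq_zero_or_pos i with rfl | hi
      · rfl
      rcases lt_or_ge i (finrank F V) with hlt | hge
      · have h2 := congrFun e ⟨i - 1, by omega⟩
        have h3 : i - 1 + 1 = i := by omega
        simp only [h3] at h2
        exact h2
      · have ht : ∀ K : Subgroup L, ch p ρ π (Op p K) i = ⊤ := fun K => by
          rw [eq_top_iff, ← ch_top D (Op_isPGroup K)]
          exact ch_mono _ hge
        rw [ht, ht]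
    have h2 := Op_eq D hK
    have h3 := Op_eq D hK'
    have h4 : Op p K = Op p K' := by
      rw [h2, h3]
      ext x
      constructor
      · rintro ⟨h, hh, rfl⟩
        refine ⟨h, ?_, rfl⟩
        rw [← hch]
        exact hh
      · rintro ⟨h, hh, rfl⟩
        refine ⟨h, ?_, rfl⟩
        rw [hch]
        exact hh
    rw [← normalizer_Op hK, ← normalizer_Op hK', h4]
  refine h1.trans (le_of_eq ?_)
  rw [Nat.card_pi, Finset.prod_const, Finset.card_univ, Fintype.card_fin]

end loc

end Cfsg.Agent.H744.EP
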